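import Cfsg.Agent.RSp.Mod
import Cfsg.Prelude.Def_KGroupFacts

/-! Direct products of small Ree groups: an abelian normal subgroup produces new element orders. -/

set_option autoImplicit false

namespace Cfsg.Lib.RSp

/-- The properties of the Ree group over the field with `3 ^ (2 m + 1)` elements. -/
structure RS (R : Type*) [Group R] (m : ℕ) : Prop where
  simple : IsSimpleGroup R
  ncomm : ¬ IsMulCommutative R
  ex : ∀ d, d = 2 ∨ d = 9 ∨ (∃ c, d ∣ mu m c) → ∃ g : R, orderOf g = d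
  spec : ∀ g : R, W m (orderOf g)
  fr1 : ∃ (F : Subgroup R) (h : R), IsPGroup 3 F ∧ orderOf h = mu m 0 ∧ Fr F h
  fr7 : ∃ (F : Subgroup R) (h : R), ¬ 3 ∣ Nat.card F ∧ orderOf h = 7 ∧ Fr F h
  fr6 : ∃ (F : Subgroup R) (h : R), ¬ 3 ∣ Nat.card F ∧ orderOf h = 6 ∧ Fr F h
  out : Nat.card (Out R) = 2 * m + 1

variable {ι : Type*} [Finite ι] {R : ι → Type*} [∀ i, Group (R i)] [∀ i, Finite (R i)] {m : ι → ℕ}

theorem exists_bad {E : Type*} [Ring E] [Nontrivial E] (hp : Par m) (hR : ∀ i, RS (R i) (m i))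
    {ρ : (∀ i, R i) →* E} (hρ : Pm ρ) {l : ℕ} (hl : l.Prime) (h0 : (l : E) = 0) :
    ∃ x, nm ρ x ≠ 0 ∧ ¬ Sp m (orderOf x * l) := by
  classical
  by_contra hn
  have H : ∀ x, nm ρ x ≠ 0 → Sp m (orderOf x * l) := fun x hx => by_contra fun h => hn ⟨x, hx, h⟩
  let s : Set ι := {i | Function.Injective (ρ.comp (MonoidHom.mulSingle R i))}
  have triv : ∀ i ∉ s, ∀ y : R i, ρ (Pi.mulSingle i y) = 1 := fun i hi y => by
    have := (hR i).simple
    rcases (ρ.comp (MonoidHom.mulSingle R i)).normal_ker.eq_bot_or_eq_top with h | h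
    · exact absurd ((injective_iff_map_eq_one _).2 fun a ha => h.le ha) hi
    · exact h.ge (Subgroup.mem_top y)
  have ne1 : ∀ i ∈ s, ∀ y : R i, y ≠ 1 → ρ (Pi.mulSingle i y) ≠ 1 := fun i hi y hy h =>
    hy ((injective_iff_map_eq_one _).1 hi y h)
  have g1 : ∀ i ∉ s, ∀ y : R i, ¬ l ∣ orderOf y → nm ρ (Pi.mulSingle i y) ≠ 0 := fun i hi y hy h => by
    rw [nm_of_eq_one ρ (triv i hi y), orderOf_single] at h
    exact one_ne_zero (cancel hl h0 hy (by rw [h, zero_mul]))
  have g2 : ∀ i ∈ s, ∀ (F : Subgroup (R i)) (y : R i), Fr F y → ¬ l ∣ Nat.card F →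
      nm ρ (Pi.mulSingle i y) ≠ 0 := fun i hi F y hF hn h =>
    hF.nm_ne _ hi hl h0 hn (by simpa [nm, orderOf_single] using h)
  choose c c0 c1 c7 using fun i => exists_no_seven (m i)
  choose r hr using fun i => (hp.gd i).exists_pr (c i)
  choose z hz using fun i => (hR i).ex (r i) (Or.inr (Or.inr ⟨_, (hr i).2.2⟩))
  have hdvd : ∀ (x : ∀ i, R i) i, orderOf (x i) ∣ orderOf x * l := fun x i =>
    (orderOf_apply_dvd_orderOf i).mul_right l
  have hzl : l = 2 ∨ l = 3 → ∀ i, ¬ l ∣ orderOf (z i) := fun h i hd => by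
    rw [hz, Nat.prime_dvd_prime_iff_eq hl (hr i).1] at hd
    exact h.elim (fun e => (hr i).ne_two (hd ▸ e)) fun e => (hr i).ne_three (hd ▸ e)
  by_cases h2 : l = 2
  · have hs : ∀ i, i ∉ s := fun i hi => by
      obtain ⟨t, ht⟩ := (hR i).ex 2 (Or.inl rfl)
      refine (H (Pi.mulSingle i t) fun h => ne1 i hi t (fun e => by simp [e] at ht) ?_).not_four
        (by rw [orderOf_single, ht, h2])
      simp only [nm, orderOf_single, ht, Finset.sum_range_succ, Finset.sum_range_zero, zero_add, pow_zero,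
        pow_one] at h
      rw [h2, Nat.cast_ofNat, ← one_add_one_eq_two] at h0
      exact add_left_cancel (h.trans h0.symm)
    obtain ⟨j, -, hj⟩ := (H z (hρ.all hl h0 z (fun i => g1 i (hs i) _ (hzl (Or.inl h2) i))
      fun i _ h => absurd h (hzl (Or.inl h2) i))).all hp (fun i => ⟨r i, hr i, hz i ▸ hdvd z i⟩) hl
      (dvd_mul_left _ _)
    exact (hj h2).elim (c0 j) (c1 j)
  by_cases h3 : l = 3
  · by_cases h4 : ∀ i ∈ s, ∀ j ∈ s, ∀ k ∈ s, i = j ∨ i = k ∨ j = k
    swap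
    · push Not at h4
      obtain ⟨i, hi, j, hj, k, hk, ij, ik, jk⟩ := h4
      choose u hu using fun i => (hR i).ex 9 (Or.inr (Or.inl rfl))
      have hu3 : ∀ i, u i ^ 3 ≠ 1 := fun i => pow_ne_one_of_lt_orderOf (by norm_num) (by rw [hu]; norm_num)
      obtain ⟨x, hx, hx'⟩ := hρ.nine (by simpa [h3] using h0) ij ik jk (hu i) (hu j) (hu k)
        (ne1 i hi _ (hu3 i)) (ne1 j hj _ (hu3 j)) (ne1 k hk _ (hu3 k))
      exact (H x hx').not_27 (by rw [hx, h3])
    by_cases h5 : ∀ i, i ∉ s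
    · exact (H z (hρ.all hl h0 z (fun i => g1 i (h5 i) _ (hzl (Or.inr h3) i))
        fun i _ h => absurd h (hzl (Or.inr h3) i))).not_three hp
        (fun i => ⟨c i, r i, hr i, hz i ▸ hdvd z i⟩) (h3 ▸ dvd_mul_left _ _)
    push Not at h5
    obtain ⟨i, hi⟩ := h5
    choose F6 a a1 a2 a3 using fun i => (hR i).fr6
    choose F7 b b1 b2 b3 using fun i => (hR i).fr7
    let x : ∀ i, R i := fun j => if j = i then a j else if j ∈ s then b j else z j
    have x1 : x i = a i := if_pos rfl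
    have x2 : ∀ j ∈ s, j ≠ i → x j = b j := fun j h h' => by simp only [x, if_neg h', if_pos h]
    have x3 : ∀ j ∉ s, x j = z j := fun j h => by
      simp only [x, if_neg h, if_neg (show j ≠ i from fun e => h (e ▸ hi))]
    have x4 : ∀ j, l ∣ orderOf (x j) → j = i := fun j hj => by
      by_contra h
      by_cases h' : j ∈ s
      · rw [x2 j h' h, b2, h3] at hj
        omega
      · exact hzl (Or.inr h3) j (x3 j h' ▸ hj)
    refine (H x (hρ.all hl h0 x (fun j => ?_) fun j k hj hk => (x4 j hj).trans (x4 k hk).symm)).not_18 hp s h4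
      (fun j hj => ⟨c j, r j, hr j, hz j ▸ x3 j hj ▸ hdvd x j, c0 j, c1 j, c7 j⟩) (fun j hj k hk jk => ?_) ?_
    · by_cases h : j = i
      · subst h
        exact x1 ▸ g2 j hi _ _ (a3 j) (h3 ▸ a1 j)
      by_cases h' : j ∈ s
      · exact x2 j h' h ▸ g2 j h' _ _ (b3 j) (h3 ▸ b1 j)
      · exact x3 j h' ▸ g1 j h' _ (hzl (Or.inr h3) j)
    · by_cases h : j = i
      · exact b2 k ▸ x2 k hk (fun e => jk (h.trans e.symm)) ▸ hdvd x k
      · exact b2 j ▸ x2 j hj h ▸ hdvd x j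
    · rw [h3]
      exact mul_dvd_mul_right (a2 i ▸ x1 ▸ orderOf_apply_dvd_orderOf i : 6 ∣ orderOf x) 3
  choose F a a1 a2 a3 using fun i => (hR i).fr1
  have hF : ∀ i, ¬ l ∣ Nat.card (F i) := fun i h => by
    have := Fact.mk Nat.prime_three
    obtain ⟨k, hk⟩ := (a1 i).exists_card_eq
    exact h3 ((Nat.prime_dvd_prime_iff_eq hl Nat.prime_three).1 (hl.dvd_of_dvd_pow (hk ▸ h)))
  by_cases h4 : ∃ i, l ∣ mu (m i) 0
  · obtain ⟨i, hi⟩ := h4
    have hpr : Pr (m i) 0 l := ⟨hl, fun e => ((hp.gd i).seven (e ▸ hi)).1 rfl, hi⟩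
    by_cases h5 : i ∈ s
    · exact (H _ (g2 i h5 _ _ (a3 i) (hF i))).not_mul hp hpr (by rw [orderOf_single, a2])
    · obtain ⟨t, ht⟩ := (hp.gd i).exists_pr 1
      obtain ⟨y, hy⟩ := (hR i).ex t (Or.inr (Or.inr ⟨_, ht.2.2⟩))
      exact absurd ((H _ (g1 i h5 y fun h => absurd (cls_eq hl hi ((hy ▸ h).trans ht.2.2))
        (by decide))).nonadj hp hpr ht (dvd_mul_left _ _) (by rw [orderOf_single, hy]; simp)) (by decide)
  · obtain ⟨j, hj, -⟩ := (H a (hρ.all hl h0 a (fun i => by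
      by_cases h5 : i ∈ s
      · exact g2 i h5 _ _ (a3 i) (hF i)
      · exact g1 i h5 _ fun h => h4 ⟨i, a2 i ▸ h⟩) fun i _ h => absurd ⟨i, a2 i ▸ h⟩ h4)).all hp
        (c := fun _ => 0) (fun i => let ⟨t, ht⟩ := (hp.gd i).exists_pr 0
          ⟨t, ht, ht.2.2.trans (a2 i ▸ hdvd a i)⟩) hl (dvd_mul_left _ _)
    exact h4 ⟨j, dvd_of_two_mul' hl h2 hj⟩

open scoped IsMulCommutative in
/-- The kernel of a surjection onto the product is not a minimal normal abelian subgroup. -/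
theorem not_min {X : Type*} [Group X] [Finite X] (hp : Par m) (hR : ∀ i, RS (R i) (m i))
    (hX : ∀ g : X, Sp m (orderOf g)) (f : X →* ∀ i, R i) (hf : Function.Surjective f)
    [IsMulCommutative f.ker] {l : ℕ} (hl : l.Prime) (he : ∀ v ∈ f.ker, v ^ l = 1) (hne : f.ker ≠ ⊥)
    (hmin : ∀ N : Subgroup X, N.Normal → N ≤ f.ker → N = ⊥ ∨ N = f.ker) : False := by
  let φ : (∀ i, R i) →* MulAut f.ker := f.liftOfRightInverse _ (Function.rightInverse_surjInv hf)
    ⟨MulAut.conjNormal, fun v hv => by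
      ext w
      simp [← setLike_mul_comm w.2 hv]⟩
  have hφ : ∀ g (v : f.ker), (φ (f g) v : X) = g * v * g⁻¹ := fun g v => by
    simp [φ]
  let ρ : (∀ i, R i) →* AddMonoid.End (Additive f.ker) :=
    { toFun := fun x => MonoidHom.toAdditive (φ x).toMonoidHom
      map_one' := by rw [map_one]; rfl
      map_mul' := fun x y => by rw [map_mul]; rfl }
  have hρ : ∀ g (v : Additive f.ker), ((ρ (f g) v).toMul : X) = g * v.toMul * g⁻¹ := fun g v => hφ g v.toMul
  have := (Subgroup.nontrivial_iff_ne_bot _).2 hne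
  have : Nontrivial (AddMonoid.End (Additive f.ker)) := by
    obtain ⟨v, hv⟩ := exists_ne (0 : Additive f.ker)
    exact ⟨1, 0, fun h => hv (DFunLike.congr_fun h v)⟩
  obtain ⟨x, hx, hx'⟩ := exists_bad hp hR (ρ := ρ) (fun a b hab => by
    let N : Subgroup f.ker :=
      { carrier := {v | ∀ x, a (ρ x (Additive.ofMul v)) = 0}
        one_mem' := fun x => by simp
        mul_mem' := fun {v w} hv hw x => by rw [ofMul_mul, map_add, map_add, hv x, hw x, add_zero]
        inv_mem' := fun {v} hv x => by rw [ofMul_inv, map_neg, map_neg, hv x, neg_zero] }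
    rcases hmin (N.map f.ker.subtype) ⟨by
      rintro _ ⟨v, hv, rfl⟩ g
      exact ⟨(ρ (f g) (Additive.ofMul v)).toMul, fun x => by simpa using hv (x * f g), hρ g _⟩⟩
      (Subgroup.map_subtype_le _) with h | h
    · refine Or.inr (AddMonoidHom.ext fun v => ?_)
      have : ((b v).toMul : X) ∈ N.map f.ker.subtype := ⟨_, fun x => DFunLike.congr_fun (hab x) v, rfl⟩
      rw [h] at this
      exact Subtype.ext this
    · refine Or.inl (AddMonoidHom.ext fun v => ?_)
      obtain ⟨w, hw, e⟩ := h.ge v.toMul.2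
      obtain rfl : w = v.toMul := Subtype.ext e
      have := hw 1
      rw [map_one] at this
      exact this) hl (AddMonoidHom.ext fun v => (AddMonoid.End.natCast_apply l v).trans
        (congrArg Additive.ofMul (Subtype.ext (he _ v.toMul.2) : v.toMul ^ l = 1)))
  obtain ⟨g, rfl⟩ := hf x
  have key : ∀ (v : Additive f.ker) (n : ℕ), ((v.toMul : X) * g) ^ n =
      ((∑ t ∈ Finset.range n, ρ (f g) ^ t) v).toMul * g ^ n := fun v n => by
    induction n with
    | zero => simp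
    | succ n ih =>
      have e : ∀ a b : AddMonoid.End (Additive f.ker), (a + b) v = a v + b v := fun _ _ => rfl
      rw [pow_succ, ih, Finset.sum_range_succ, e, toMul_add, Subgroup.coe_mul,
        ← map_pow, ← map_pow, hρ, pow_succ]
      group
  obtain ⟨y, hy, hy'⟩ : ∃ y, f y = f g ∧ y ^ orderOf (f g) ≠ 1 := by
    by_contra hn
    push Not at hn
    refine hx (AddMonoidHom.ext fun v => ?_)
    have h1 := key v (orderOf (f g))
    rw [hn g rfl, hn _ (by rw [map_mul, v.toMul.2, one_mul]), mul_one] at h1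
    exact Subtype.ext h1.symm
  have := Fact.mk hl
  have h1 : orderOf (y ^ orderOf (f g)) = l :=
    orderOf_eq_prime (he _ (by rw [MonoidHom.mem_ker, map_pow, hy, pow_orderOf_eq_one])) hy'
  have h2 : orderOf (f g) ∣ orderOf y := hy ▸ orderOf_map_dvd f y
  rw [orderOf_pow_of_dvd (orderOf_pos _).ne' h2] at h1
  exact hx' (by rw [← h1, Nat.mul_div_cancel' h2]; exact hX y)

end Cfsg.Lib.RSp
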