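import Cfsg.Agent.RSp.Bad
import Cfsg.Agent.Known.ReeLocal
import Cfsg.Agent.Known.ReeInst
import Cfsg.Agent.S1073
import Cfsg.Agent.S2127

/-! Direct products of small Ree groups: the properties of one factor. -/

set_option autoImplicit false

namespace Cfsg.Lib.RSp

open Cfsg.Lib.Known.Ree Subgroup

theorem exists_six {G : Type*} [Group G] [Finite G] {T : Subgroup G} (hT : IsTor T T)
    (h2 : ¬ 2 ∣ Nat.card T) (h3 : ¬ 3 ∣ Nat.card T) (h1 : T ≠ ⊥)
    (hN : Nat.card (normalizer (T : Set G)) = 6 * Nat.card T) : ∃ h, orderOf h = 6 ∧ Fr T h := by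
  have := Fact.mk Nat.prime_two
  have := Fact.mk Nat.prime_three
  have := hT.cyc
  obtain ⟨a, ha⟩ := exists_prime_orderOf_dvd_card' (G := normalizer (T : Set G)) 2 (by omega)
  obtain ⟨b, hb⟩ := exists_prime_orderOf_dvd_card' (G := normalizer (T : Set G)) 3 (by omega)
  have k1 : ∀ x ∈ T, x ^ 6 = 1 → x = 1 := fun x hx h => orderOf_eq_one_iff.1 (by
    have h4 := T.orderOf_dvd_natCard hx
    have h5 := orderOf_dvd_of_pow_eq_one h
    have : orderOf x ≤ 6 := Nat.le_of_dvd (by norm_num) h5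
    interval_cases orderOf x <;> omega)
  have k2 : ∀ t ∈ T, t ≠ 1 → ∀ x, Commute t x → x ∈ T := fun t ht t1 x hx =>
    (hT.cent_A ht t1).le (mem_centralizer_singleton_iff.2 hx.symm)
  obtain ⟨⟨t, ht⟩, t1⟩ := ne_bot_iff_exists_ne_one.1 h1
  let φ := T.normalizerMonoidHom
  have k3 : ∀ x, φ x = 1 → x ^ 6 = 1 → x = 1 := fun x hx h => Subtype.ext (k1 _
    (k2 t ht (fun e => t1 (Subtype.ext e)) x (by
      have : (x : G) * t * (x : G)⁻¹ = t := congrArg (fun β : MulAut T => (β ⟨t, ht⟩ : G)) hx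
      exact (mul_inv_eq_iff_eq_mul.1 this).symm)) (congrArg Subtype.val h))
  have a2 : a ^ 2 = 1 := ha ▸ pow_orderOf_eq_one a
  have b3 : b ^ 3 = 1 := hb ▸ pow_orderOf_eq_one b
  have hc : Commute (φ a) (φ b) := (IsCyclic.mulAutMulEquiv T).injective (by
    rw [map_mul, map_mul, mul_comm])
  have k4 : ∀ n, φ ((a * b) ^ n) = φ (a ^ n) * φ (b ^ n) := fun n => by
    rw [map_pow, map_mul, hc.mul_pow, map_pow, map_pow]
  have n2 : φ ((a * b) ^ 2) ≠ 1 := fun h => by
    rw [k4, a2, map_one, one_mul] at h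
    exact pow_ne_one_of_lt_orderOf two_ne_zero (by omega)
      (k3 _ h (by rw [← pow_mul, show 2 * 6 = 3 * 4 from rfl, pow_mul, b3, one_pow]))
  have n3 : φ ((a * b) ^ 3) ≠ 1 := fun h => by
    rw [k4, b3, map_one, mul_one, pow_succ, a2, one_mul] at h
    exact pow_ne_one_of_lt_orderOf one_ne_zero (by omega)
      ((pow_one a).trans (k3 _ h (by rw [show 6 = 2 * 3 from rfl, pow_mul, a2, one_pow])))
  have n6 : (a * b) ^ 6 = 1 := by
    by_contra h
    have h4 : φ ((a * b) ^ 6) = 1 := by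
      rw [k4, show 6 = 2 * 3 from rfl, pow_mul, a2, mul_comm 2, pow_mul, b3]
      simp
    have h5 : (((a * b) ^ 6 : normalizer (T : Set G)) : G) ∈ T := k2 t ht (fun e => t1 (Subtype.ext e)) _ (by
      have : (((a * b) ^ 6 : normalizer (T : Set G)) : G) * t * (((a * b) ^ 6 : normalizer (T : Set G)) : G)⁻¹ = t :=
        congrArg (fun β : MulAut T => (β ⟨t, ht⟩ : G)) h4
      exact (mul_inv_eq_iff_eq_mul.1 this).symm)
    have h6 := k2 _ h5 (fun e => h (Subtype.ext e)) (a * b : normalizer (T : Set G))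
      (Commute.pow_self _ 6)
    refine n2 ?_
    rw [map_pow, show φ (a * b) = 1 from MulEquiv.ext fun s => Subtype.ext
      (mul_inv_eq_iff_eq_mul.2 (hT.comm _ h6 _ s.2)), one_pow]
  have ho : orderOf (a * b) = 6 := by
    have h5 := orderOf_dvd_of_pow_eq_one n6
    have h6 : ¬ orderOf (a * b) ∣ 2 := fun h => n2 (by rw [orderOf_dvd_iff_pow_eq_one.1 h, map_one])
    have h7 : ¬ orderOf (a * b) ∣ 3 := fun h => n3 (by rw [orderOf_dvd_iff_pow_eq_one.1 h, map_one])
    have : orderOf (a * b) ≤ 6 := Nat.le_of_dvd (by norm_num) h5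
    interval_cases orderOf (a * b) <;> omega
  rw [← orderOf_coe] at ho
  refine ⟨_, ho, h1, fun f hf => (mem_normalizer_iff.1 (a * b).2 f).1 hf, fun i i0 hi f hf hc => ?_⟩
  by_contra f1
  exact pow_ne_one_of_lt_orderOf i0.ne' hi (k1 _ (k2 f hf f1 _ hc)
    (by rw [← pow_mul, mul_comm, pow_mul, ← ho, pow_orderOf_eq_one, one_pow]))

theorem rs_ree {K : Type*} [Field K] [Fintype K] {m : ℕ} (hm : Gd m) (hK : Fintype.card K = 3 ^ (2 * m + 1)) :
    RS (Lie.twistedG2 K (3 ^ m)) m := by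
  obtain ⟨τ, M, -⟩ := exists_model hK
  have h1 : 1 ≤ m := by have := hm.2; omega
  have hs := fun d => M.exists_orderOf_iff h1 d
  rw [hK, ← two_mul_mu0, ← two_mul_mu1] at hs
  have spec : ∀ g : Lie.twistedG2 K (3 ^ m), W m (orderOf g) := fun g => by
    rcases (hs _).1 ⟨g, rfl⟩ with h | h | h | h | h | h
    · exact Or.inl h
    · exact Or.inr (Or.inl h)
    · exact Or.inr (Or.inr ⟨0, h, fun _ => Or.inl rfl⟩)
    · exact Or.inr (Or.inr ⟨1, h, fun _ => Or.inr rfl⟩)
    · exact Or.inr (Or.inr ⟨2, h.mul_left _, fun h' => absurd (h'.trans h) (not_two (m := m) 2)⟩)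
    · exact Or.inr (Or.inr ⟨3, h.mul_left _, fun h' => absurd (h'.trans h) (not_two (m := m) 3)⟩)
  refine ⟨(Agent.S1073.result h1 hK).1, (Agent.S1073.result h1 hK).2, fun d hd => (hs d).2 ?_, spec, ?_, ?_, ?_,
    Agent.S2127.result h1 hK⟩
  · rcases hd with rfl | rfl | ⟨c, hc⟩
    · exact Or.inl (by norm_num)
    · exact Or.inr (Or.inl dvd_rfl)
    · rcases fin4 c with rfl | rfl | rfl | rfl
      · exact Or.inr (Or.inr (Or.inl (hc.mul_left _)))
      · exact Or.inr (Or.inr (Or.inr (Or.inl (hc.mul_left _))))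
      · exact Or.inr (Or.inr (Or.inr (Or.inr (Or.inl hc))))
      · exact Or.inr (Or.inr (Or.inr (Or.inr (Or.inr hc))))
  · obtain ⟨⟨a, ha⟩, ha'⟩ := isCyclic_iff_exists_orderOf_eq_natCard.1 M.isTor_H.cyc
    refine ⟨M.U, a, M.isPGroup_U, by rw [← orderOf_mk a ha, ha', M.card_A₀, hK]; rfl,
      fun h => one_ne_zero (M.x_eq_one.1 (h.le (M.x_mem_U 1 0 0))).1,
      fun f hf => M.conj_mem_U (M.H_le_B (M.isTor_H.le ha)) hf, fun i i0 hi f hf hc =>
        M.eq_one_of_commute_odd (M.isTor_H.le (pow_mem ha i)) (pow_ne_one_of_lt_orderOf i0.ne' hi)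
          (M.isTor_H.odd (pow_mem ha i)) hf hc⟩
  · have := Fact.mk (by norm_num : Nat.Prime 7)
    obtain ⟨x, hx⟩ := exists_prime_orderOf_dvd_card' 7
      ((by norm_num : 7 ∣ 168).trans M.card_normalizer_S.symm.dvd)
    rw [← orderOf_coe] at hx
    refine ⟨M.S, x, by rw [M.card_S]; norm_num, hx, fun h => M.t_ne_one (h.le M.t_mem_S),
      fun f hf => (mem_normalizer_iff.1 x.2 f).1 hf, fun i i0 hi f hf hc => ?_⟩
    by_contra f1
    have h2 : orderOf f = 2 := orderOf_eq_prime ((sq f).trans (M.mul_self_of_mem_S hf)) f1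
    have h7 : orderOf ((x : Lie.twistedG2 K (3 ^ m)) ^ i) = 7 := orderOf_eq_prime
      (by rw [← pow_mul, mul_comm, pow_mul, ← hx, pow_orderOf_eq_one, one_pow])
      (pow_ne_one_of_lt_orderOf i0.ne' hi)
    have := spec (f * x ^ i)
    rw [hc.orderOf_mul_eq_mul_orderOf_of_coprime (by rw [h2, h7]; norm_num), h2, h7] at this
    exact this.not_14 hm (by norm_num) (by norm_num)
  · obtain ⟨T, -, hT, -, h2, -, h3, -⟩ := M.exists_pi_tori h1
    have h4 : Nat.card T = mu m 2 := by rw [h2, hK]; rfl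
    obtain ⟨h, h5⟩ := exists_six hT (h4 ▸ not_two 2) (h4 ▸ not_three 2) (fun h => by
      have := seven_lt (m := m) (by have := hm.2; omega) 2
      rw [← h4, h, card_bot] at this
      omega) h3
    exact ⟨T, h, h4 ▸ not_three 2, h5⟩

theorem exists_orderOf_ree {K : Type*} [Field K] [Fintype K] {m : ℕ} (hK : Fintype.card K = 3 ^ (2 * m + 1))
    {l : ℕ} (hl : l.Prime) (h : l = 3 ∨ l ∣ (3 ^ (2 * m + 1)) ^ 3 + 1) :
    ∃ g : Lie.twistedG2 K (3 ^ m), orderOf g = l := by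
  obtain ⟨τ, M, -⟩ := exists_model hK
  have := Fact.mk hl
  refine exists_prime_orderOf_dvd_card' l ?_
  rw [M.card_G, hK]
  rcases h with rfl | h
  · exact (((dvd_pow_self 3 (by omega)).trans (dvd_pow_self _ three_ne_zero)).mul_right _).mul_right _
  · exact h.mul_left _

end Cfsg.Lib.RSp
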